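import Cfsg.Agent.H296.FFourFix
import Cfsg.Agent.H522.FldSixLib
import Cfsg.Agent.H469.Exc.Model

/-!
# S3509, `F₄(2^n)`, `n` odd: constant words (helper72)

* `cw k w` : the product of the root elements `x_r(1)`, `r ∈ w`; `cw_eq`, `aut_cw`, `cw_phi`, `emb_cw`;
* `eq_one_of_u0_n0` : an element of `F₄(k)` commuting with `u0` and `n0` is trivial.
-/

set_option autoImplicit false
set_option linter.unusedSectionVars false

namespace Cfsg.Agent.H72.F4G

open Subgroup Cfsg Cfsg.Lie Cfsg.Lie.ChevalleyDatum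
open Cfsg.Agent.ChevalleyStructure Cfsg.Agent.ChevalleyStructure.Elts Cfsg.Agent.ChevalleyStructure.BruhatSplit
  Cfsg.Agent.ChevalleyStructure.RootWord Cfsg.Agent.ChevalleyStructure.NConj
open Cfsg.Agent.ChevalleyStructure.WordCheck
open Cfsg.Agent.GpExc.Field (glMap emb coe_emb glMap_xG emb_injective coe_glMap)
open Cfsg.Agent.BpExc.FamUntw Cfsg.Agent.BpExc.FamField Cfsg.Agent.BpExc.TowChev
open Cfsg.Agent.H79.SimpleGen (xS)
open Cfsg.Agent.H296.FFour (hp4 br la tab al al_xS fld_xS phi_xS tab2)
open Cfsg.Agent.H522.FamTw.Cent (Co co_word eq_one_of_comm)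

universe u

section cwd

variable (k : Type u) [Field k]

/-- the product of the root elements `x_r(1)`, `r ∈ w` -/
def cw (w : List ℕ) : ↥(chevF4.group k) := (w.map fun r => xS hp4.inList r (1 : k)).prod

theorem cw_nil : cw k [] = 1 := rfl

theorem cw_cons (r : ℕ) (w : List ℕ) : cw k (r :: w) = xS hp4.inList r (1 : k) * cw k w := by
  unfold cw
  rw [List.map_cons, List.prod_cons]

theorem cw_append (w v : List ℕ) : cw k (w ++ v) = cw k w * cw k v := by
  unfold cw
  rw [List.map_append, List.prod_append]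

theorem coe_cw (w : List ℕ) : ((cw k w : ↥(chevF4.group k)) : GL chevF4.Idx k) =
    wordG hp4.inList (w.map fun r => (r, (1 : k))) := by
  induction w with
  | nil => rfl
  | cons p w ih =>
    rw [cw_cons, Subgroup.coe_mul, ih, List.map_cons, wordG_cons]
    rfl

/-- the words as symbolic words -/
def cc (w : List ℕ) : List (ℕ × PExpr) := w.map fun r => (r, PExpr.const 1)

/-- the check -/
def ck (w w' : List ℕ) : Bool := check chevF4 2 0 0 (xw (cc w)) (xw (cc w'))

theorem wval_cc (w : List ℕ) : wval (fun _ => (0 : k)) (cc w) = w.map fun r => (r, (1 : k)) := by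
  unfold wval cc
  rw [List.map_map]
  apply List.map_congr_left
  intro r _
  show (r, ((1 : ℤ) : k)) = (r, 1)
  rw [Int.cast_one]

theorem cw_eq [CharP k 2] {w w' : List ℕ} (h : ck w w' = true) : cw k w = cw k w' := by
  have h2 : ((2 : ℕ) : k) = 0 := CharP.cast_eq_zero k 2
  apply Subtype.ext
  apply Units.ext
  rw [coe_cw, coe_cw, coe_wordG, coe_wordG, ← wval_cc, ← wval_cc]
  exact wordMat_eq_of_check chevF4 (fun _ => (0 : k)) 2 0 0 (cc w) (cc w') h h2
    (fun i hi => absurd hi (Nat.not_lt_zero _))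

variable {k}

/-- the reflected word -/
noncomputable def fw (w : List ℕ) : List ℕ := w.map br

theorem aut_cw {β : MulAut ↥(chevF4.group k)} {e : ℕ → ℕ}
    (hβ : ∀ r < 48, ∀ t : k, β (xS hp4.inList r t) = xS hp4.inList (br r) (t ^ e r)) {w : List ℕ}
    (hw : ∀ r ∈ w, r < 48) : β (cw k w) = cw k (fw w) := by
  induction w with
  | nil => exact map_one β
  | cons p w ih =>
    rw [cw_cons, map_mul, ih fun q hq => hw q (List.mem_cons_of_mem _ hq), hβ _ (hw p List.mem_cons_self), one_pow]
    exact (cw_cons k (br p) (fw w)).symm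

theorem cw_phi [CharP k 2] [PerfectRing k 2] (m : ℕ) (w : List ℕ) :
    phi chevF4 k 2 m (cw k w) = cw k w := by
  induction w with
  | nil => exact map_one _
  | cons p w ih => rw [cw_cons, map_mul, ih, phi_xS, one_pow]

theorem emb_xS {F : Type u} [Field F] (f : F →+* k) (r : ℕ) (t : F) :
    emb hp4.inList f (xS hp4.inList r t) = xS hp4.inList r (f t) := by
  apply Subtype.ext
  rw [coe_emb]
  exact glMap_xG hp4.inList f r t

theorem emb_cw {F : Type u} [Field F] (f : F →+* k) (w : List ℕ) : emb hp4.inList f (cw F w) = cw k w := by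
  induction w with
  | nil => exact map_one _
  | cons p w ih => rw [cw_cons, cw_cons, map_mul, ih, emb_xS, map_one]

end cwd

/-! ### the elements -/

def s0 : List ℕ := [33, 24]
def s1 : List ℕ := [27, 25, 28]
def u0 : List ℕ := s0 ++ s1
def h0 : List ℕ := [46, 40]
def z0 : List ℕ := [47, 44]
/-- the words of the monomial elements -/
def nw (v : List ℕ) : List ℕ := v.flatMap fun i => [chevF4.simple i, chevF4.neg (chevF4.simple i), chevF4.simple i]
def n1w : List ℕ := [33, 14, 33, 24, 23, 24]
def n2w : List ℕ := [27, 20, 27, 25, 22, 25, 27, 20, 27, 25, 22, 25]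
def v0 : List ℕ := [0, 3, 1, 2, 1, 2]

set_option maxRecDepth 100000

theorem fw_s0 : fw s0 = [24, 33] := by decide +kernel
theorem fw_s1 : fw s1 = [25, 27, 30] := by decide +kernel
theorem fw_h0 : fw h0 = [40, 46] := by decide +kernel
theorem fw_z0 : fw z0 = [44, 47] := by decide +kernel
theorem fw_n1 : fw n1w = [24, 23, 24, 33, 14, 33] := by decide +kernel
theorem fw_n2 : fw n2w = [25, 22, 25, 27, 20, 27, 25, 22, 25, 27, 20, 27] := by decide +kernel
theorem nw_v0 : nw v0 = n1w ++ n2w := by decide +kernel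

theorem ck_s0 : ck (fw s0) s0 = true := by rw [fw_s0]; decide +kernel
theorem ck_s1 : ck (fw s1) s1 = true := by rw [fw_s1]; decide +kernel
theorem ck_h0 : ck (fw h0) h0 = true := by rw [fw_h0]; decide +kernel
theorem ck_z0 : ck (fw z0) z0 = true := by rw [fw_z0]; decide +kernel
theorem ck_n1 : ck (fw n1w) n1w = true := by rw [fw_n1]; decide +kernel
theorem ck_n2 : ck (fw n2w) n2w = true := by rw [fw_n2]; decide +kernel
theorem ck_comm : ck (s0 ++ h0) (z0 ++ (h0 ++ s0)) = true := by decide +kernel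
theorem ck_a : ck ([24] ++ z0) (z0 ++ [24]) = true := by decide +kernel
theorem ck_b : ck (h0 ++ z0) (z0 ++ h0) = true := by decide +kernel

end Cfsg.Agent.H72.F4G
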