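import Cfsg.Agent.H72.F4G.Const

/-!
# S3509, `F₄(2^n)`, `n` odd: elements commuting with the constant elements `u0`, `n0` (helper72)

* `eq_one_of_u0_n0` : an element of `F₄(k)` commuting with `u0` and `n0` is trivial.
-/

set_option autoImplicit false
set_option linter.unusedSectionVars false

namespace Cfsg.Agent.H72.F4G

open Subgroup Cfsg Cfsg.Lie Cfsg.Lie.ChevalleyDatum
open Cfsg.Agent.ChevalleyStructure Cfsg.Agent.ChevalleyStructure.Elts Cfsg.Agent.ChevalleyStructure.BruhatSplit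
  Cfsg.Agent.ChevalleyStructure.RootWord Cfsg.Agent.ChevalleyStructure.NConj
open Cfsg.Agent.H79.SimpleGen (xS)
open Cfsg.Agent.H296.FFour (hp4 br la tab al al_xS fld_xS phi_xS tab2)
open Cfsg.Agent.H522.FamTw.Cent (Co co_word eq_one_of_comm)

universe u

theorem rank4 : chevF4.rank = 4 := rfl
theorem nroots4 : chevF4.nroots = 48 := rfl

set_option maxRecDepth 100000 in
theorem pos_tab : ∀ r < 48, 24 ≤ r → chevF4.IsPosRoot r := by decide +kernel

set_option maxRecDepth 100000 in
theorem simple_tab : chevF4.simple 0 = 33 ∧ chevF4.simple 1 = 27 ∧ chevF4.simple 2 = 25 ∧ chevF4.simple 3 = 24 ∧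
    chevF4.neg 33 = 14 ∧ chevF4.neg 27 = 20 ∧ chevF4.neg 25 = 22 ∧ chevF4.neg 24 = 23 := by decide +kernel

theorem neg_tab : ∀ r < 48, chevF4.IsNegRoot r → ¬ 24 ≤ r := by decide +kernel

/-- the word of the longest element -/
def w0 : List ℕ := v0 ++ (v0 ++ (v0 ++ v0))

set_option maxRecDepth 100000 in
theorem wact_tab : ∀ r < 48, ¬ 24 ≤ r → 24 ≤ wact chevF4 w0 r ∧ wact chevF4 w0 r < 48 := by decide +kernel

section

variable (k : Type u) [Field k]

/-- the representative of the longest element -/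
def n0 : ↥(chevF4.group k) := cw k (nw v0) * (cw k (nw v0) * (cw k (nw v0) * cw k (nw v0)))

variable {k}

/-- positive words -/
theorem cw_mem_pos {w : List ℕ} (hw : ∀ r ∈ w, 24 ≤ r ∧ r < 48) :
    ((cw k w : ↥(chevF4.group k)) : GL chevF4.Idx k) ∈ chevF4.posUnipotent k := by
  induction w with
  | nil => exact one_mem _
  | cons p w ih =>
    have hp := hw p List.mem_cons_self
    rw [cw_cons, Subgroup.coe_mul]
    exact mul_mem (xG_mem_posUnipotent hp4.inList (pos_tab _ hp.2 hp.1) _) (ih fun q hq => hw q (List.mem_cons_of_mem _ hq))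

theorem co_u0 : ∀ i < chevF4.rank, ∃ s : k,
    Co hp4.inList i ((cw k u0 : ↥(chevF4.group k)) : GL chevF4.Idx k) s ∧ s ≠ 0 := by
  intro i hi
  have hi4 : i < 4 := hi
  refine ⟨1, ?_, one_ne_zero⟩
  have h1 := co_word (hD := hp4.inList) hi (u0.map fun r => (r, (1 : k))) (by
    intro q hq
    obtain ⟨r, hr, rfl⟩ := List.mem_map.1 hq
    have h2 : 24 ≤ r ∧ r < 48 := by
      have : ∀ r ∈ u0, 24 ≤ r ∧ r < 48 := by decide
      exact this r hr
    exact pos_tab r h2.2 h2.1)
  rw [← coe_cw] at h1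
  have h2 : (((u0.map fun r => (r, (1 : k))).map fun q => if q.1 = chevF4.simple i then q.2 else 0).sum) = 1 := by
    obtain ⟨e0, e1, e2, e3, -⟩ := simple_tab
    interval_cases i
    · rw [e0]; simp [u0, s0, s1]
    · rw [e1]; simp [u0, s0, s1]
    · rw [e2]; simp [u0, s0, s1]
    · rw [e3]; simp [u0, s0, s1]
  rwa [h2] at h1

variable [CharP k 2]

theorem coe_ni (i : ℕ) : ((cw k [chevF4.simple i, chevF4.neg (chevF4.simple i), chevF4.simple i] : ↥(chevF4.group k)) :
    GL chevF4.Idx k) = nG hp4.inList (chevF4.simple i) 1 := by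
  rw [coe_cw, nG, nWord]
  have h1 : -(1 : k)⁻¹ = 1 := by rw [inv_one, CharTwo.neg_eq]
  rw [h1]
  rfl

theorem cw_nw_cons (i : ℕ) (v : List ℕ) : cw k (nw (i :: v)) =
    cw k [chevF4.simple i, chevF4.neg (chevF4.simple i), chevF4.simple i] * cw k (nw v) := by
  unfold nw
  rw [List.flatMap_cons, cw_append]

theorem nw_mono {v : List ℕ} (hv : ∀ i ∈ v, i < 4) :
    ((cw k (nw v) : ↥(chevF4.group k)) : GL chevF4.Idx k) ∈ chevF4.monomialSubgroup k := by
  induction v with
  | nil => exact one_mem _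
  | cons i v ih =>
    have hi : i < 4 := hv i List.mem_cons_self
    have hs : chevF4.simple i < chevF4.nroots := (RootComb.good_of_mem hp4.inList).simple_lt hi
    rw [cw_nw_cons, Subgroup.coe_mul, coe_ni]
    exact mul_mem (nG_mem_monomial hp4.inList hs one_ne_zero) (ih fun j hj => hv j (List.mem_cons_of_mem _ hj))

theorem nw_acts {v : List ℕ} (hv : ∀ i ∈ v, i < 4) :
    Acts ((cw k (nw v) : ↥(chevF4.group k)) : GL chevF4.Idx k) v := by
  induction v with
  | nil => exact acts_one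
  | cons i v ih =>
    have hi : i < chevF4.rank := hv i List.mem_cons_self
    have hv' : ∀ j ∈ v, j < chevF4.rank := fun j hj => hv j (List.mem_cons_of_mem _ hj)
    have h1 := acts_nG_simple (F := k) hp4.inList hi
    have h2 := ih hv'
    rw [cw_nw_cons, Subgroup.coe_mul, coe_ni]
    generalize ((cw k (nw v) : ↥(chevF4.group k)) : GL chevF4.Idx k) = x at h2 ⊢
    generalize nG hp4.inList (chevF4.simple i) (1 : k) = y at h1 ⊢
    rw [← List.singleton_append]
    exact Acts.mul (RootComb.good_of_mem hp4.inList) h1 h2 hv'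

theorem v0_lt : ∀ i ∈ v0, i < 4 := by decide

theorem coe_n0 : ((n0 k : ↥(chevF4.group k)) : GL chevF4.Idx k) = ((cw k (nw v0) : ↥(chevF4.group k)) : GL chevF4.Idx k) *
    (((cw k (nw v0) : ↥(chevF4.group k)) : GL chevF4.Idx k) * (((cw k (nw v0) : ↥(chevF4.group k)) : GL chevF4.Idx k) *
      ((cw k (nw v0) : ↥(chevF4.group k)) : GL chevF4.Idx k))) := by
  unfold n0
  generalize cw k (nw v0) = x
  rfl

theorem n0_mono : ((n0 k : ↥(chevF4.group k)) : GL chevF4.Idx k) ∈ chevF4.monomialSubgroup k := by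
  have h := nw_mono (k := k) v0_lt
  rw [coe_n0]
  generalize ((cw k (nw v0) : ↥(chevF4.group k)) : GL chevF4.Idx k) = x at h ⊢
  exact mul_mem h (mul_mem h (mul_mem h h))

theorem n0_acts : Acts ((n0 k : ↥(chevF4.group k)) : GL chevF4.Idx k) w0 := by
  have h := nw_acts (k := k) v0_lt
  have G := RootComb.good_of_mem hp4.inList
  have l1 : ∀ i ∈ v0, i < chevF4.rank := v0_lt
  have l2 : ∀ i ∈ v0 ++ v0, i < chevF4.rank := fun i hi => (List.mem_append.1 hi).elim (l1 i) (l1 i)
  have l3 : ∀ i ∈ v0 ++ (v0 ++ v0), i < chevF4.rank := fun i hi => (List.mem_append.1 hi).elim (l1 i) (l2 i)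
  rw [coe_n0]
  generalize ((cw k (nw v0) : ↥(chevF4.group k)) : GL chevF4.Idx k) = x at h ⊢
  exact Acts.mul G h (Acts.mul G h (Acts.mul G h h l1) l2) l3

theorem n0_neg (v : GL chevF4.Idx k) (hv : v ∈ chevF4.negUnipotent k) :
    ((n0 k : ↥(chevF4.group k)) : GL chevF4.Idx k) * v * ((n0 k : ↥(chevF4.group k)) : GL chevF4.Idx k)⁻¹ ∈
      chevF4.posUnipotent k := by
  have h1 : chevF4.negUnipotent k ≤ (chevF4.posUnipotent k).comap
      (MulAut.conj ((n0 k : ↥(chevF4.group k)) : GL chevF4.Idx k)).toMonoidHom := by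
    rw [negUnipotent_le_iff hp4.inList]
    intro r hr t
    have hr48 : r < 48 := hr.1
    have h2 := wact_tab r hr48 (neg_tab r hr48 hr)
    have h3 := Subgroup.mem_map_of_mem
      (MulAut.conj ((n0 k : ↥(chevF4.group k)) : GL chevF4.Idx k)).toMonoidHom (xG_mem_rootSubgroup hp4.inList r t)
    rw [n0_acts r hr.1] at h3
    obtain ⟨c, hc⟩ := (mem_rootSubgroup_iff hp4.inList _ _).1 h3
    rw [Subgroup.mem_comap, hc]
    exact xG_mem_posUnipotent hp4.inList (pos_tab _ h2.2 h2.1) c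
  exact h1 hv

/-- **an element commuting with `u0` and `n0` is trivial** -/
theorem eq_one_of_u0_n0 {y : ↥(chevF4.group k)} (hu : y * cw k u0 = cw k u0 * y)
    (hn : y * n0 k = n0 k * y) : y = 1 := by
  apply Subtype.ext
  exact eq_one_of_comm hp4 y.2 (cw_mem_pos (by decide)) co_u0 (congrArg Subtype.val hu) n0_mono n0_neg
    (congrArg Subtype.val hn)

end

end Cfsg.Agent.H72.F4G
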